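import Mathlib

/-!
# Groups whose abelianisation is elementary abelian: `∀ x, x ^ 2 ∈ commutator G`

* `of_equiv`, `of_surjective`: transport;
* `of_closure`: it is enough to check the squares of generators;
* `sylow_of_equiv`, `sylow_of_card`: transport to Sylow 2-subgroups.
-/

set_option autoImplicit false

namespace Cfsg.Agent.H638.SqComm

/-- the square of every element lies in the derived subgroup -/
def SqComm (G : Type*) [Group G] : Prop := ∀ x : G, x ^ 2 ∈ commutator G

theorem of_surjective {G H : Type*} [Group G] [Group H] (f : G →* H) (hf : Function.Surjective f) (h : SqComm G) :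
    SqComm H := by
  intro y
  obtain ⟨x, rfl⟩ := hf y
  rw [← map_pow]
  have h1 : (commutator G).map f ≤ commutator H := by
    rw [commutator_def, Subgroup.map_commutator]
    exact Subgroup.commutator_mono le_top le_top
  exact h1 ⟨_, h x, rfl⟩

theorem of_equiv {G H : Type*} [Group G] [Group H] (e : G ≃* H) (h : SqComm G) : SqComm H :=
  of_surjective e.toMonoidHom e.surjective h

/-- It is enough to check generators. -/
theorem of_closure {G : Type*} [Group G] (S : Set G) (hS : Subgroup.closure S = ⊤)
    (h : ∀ x ∈ S, x ^ 2 ∈ commutator G) : SqComm G := by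
  -- the set of elements whose square dies in the abelianisation is a subgroup
  let K : Subgroup G := ((powMonoidHom 2).comp (Abelianization.of (G := G))).ker
  have hK : ∀ x, x ∈ K ↔ x ^ 2 ∈ commutator G := by
    intro x
    show (Abelianization.of x) ^ 2 = 1 ↔ _
    rw [← map_pow, ← MonoidHom.mem_ker, Abelianization.ker_of]
  have h1 : Subgroup.closure S ≤ K := (Subgroup.closure_le _).2 fun x hx => (hK x).2 (h x hx)
  intro x
  rw [hS] at h1
  exact (hK x).1 (h1 (Subgroup.mem_top x))

/-- Version for subgroups: `P = closure S` inside a bigger group. -/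
theorem of_closure_eq {G : Type*} [Group G] {P : Subgroup G} (S : Set G) (hS : Subgroup.closure S = P)
    (h : ∀ x ∈ S, x ^ 2 ∈ ⁅P, P⁆) : SqComm P := by
  have hmap : (commutator P).map P.subtype = ⁅P, P⁆ := by
    rw [commutator_def, Subgroup.map_commutator]
    simp [← MonoidHom.range_eq_map]
  refine of_closure (P.subtype ⁻¹' S) ?_ ?_
  · have hSP : S ⊆ P := by
      intro x hx
      rw [← hS]
      exact Subgroup.subset_closure hx
    apply Subgroup.map_injective P.subtype_injective
    rw [MonoidHom.map_closure, ← MonoidHom.range_eq_map, Subgroup.range_subtype]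
    rw [Set.image_preimage_eq_of_subset, hS]
    intro x hx
    exact ⟨⟨x, hSP hx⟩, rfl⟩
  · intro x hx
    have h1 := h _ hx
    rw [← hmap] at h1
    obtain ⟨y, hy, hyx⟩ := h1
    have : y = x ^ 2 := Subtype.ext hyx
    rwa [this] at hy

/-- All Sylow 2-subgroups of isomorphic groups. -/
theorem sylow_of_sylow {G : Type*} [Group G] [Finite G] {p : ℕ} [Fact p.Prime] (Q : Sylow p G)
    (h : SqComm (Q : Subgroup G)) (P : Sylow p G) : SqComm (P : Subgroup G) :=
  of_equiv (Sylow.equiv Q P) h

end Cfsg.Agent.H638.SqComm
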